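import Cfsg.Agent.S0205
import Cfsg.Agent.OneSeen.PGroup
import Cfsg.Agent.OneSeen.Orth
import Cfsg.Agent.S4456
import Cfsg.Agent.S0033
import Cfsg.Agent.BlkChar.PModular
import Cfsg.Agent.BlkChar.Knorr
import Cfsg.Agent.CharInd.Basic

/-!
# Solvability for an element seen by one non-linear character
-/

set_option linter.unusedSectionVars false

noncomputable section

namespace Cfsg.Agent.OneSeen

open Cfsg
open scoped ComplexConjugate Classical commutatorElement

variable {G : Type*} [Group G] [Fintype G]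

/-- The data extracted from the orthogonality relations. -/
structure Data (g : G) (χ : IrrCharacter G) (K : Subgroup G) : Prop where
  nK : K.Normal
  le : K ≤ commutator G
  memK : ∀ x, x ∈ K ↔ (χ : G → ℂ) x = (χ : G → ℂ) 1
  gG : g ∈ commutator G
  gK : g ∉ K
  cls : ∀ x ∈ commutator G, x ∉ K → IsConj g x
  val : (χ : G → ℂ) g = -(((commutator G).index : ℂ) / (χ : G → ℂ) 1)
  vanish : ∀ x, x ∉ commutator G → (χ : G → ℂ) x = 0
  other : ∀ ψ : IrrCharacter G, (ψ : G → ℂ) 1 ≠ 1 → ψ ≠ χ → (ψ : G → ℂ) g = 0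

variable {g : G} {χ : IrrCharacter G} {K : Subgroup G}

namespace Data

theorem conj_mem (d : Data g χ K) {x : G} (hx : x ∈ K) (a : G) : a * x * a⁻¹ ∈ K :=
  d.nK.conj_mem x hx a

theorem exists_prime (d : Data g χ K) :
    ∃ p : ℕ, p.Prime ∧ (∃ a, orderOf g = p ^ a) ∧ ∀ x ∈ commutator G, x ^ p ∈ K := by
  haveI := d.nK
  have hgne : orderOf g ≠ 1 := fun h => d.gK (orderOf_eq_one_iff.1 h ▸ K.one_mem)
  have key : ∀ r : ℕ, r.Prime → r ∣ orderOf g → g ^ r ∈ K := by
    intro r hr hdvd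
    by_contra h
    obtain ⟨c, hc⟩ := isConj_iff.1 (d.cls _ (Subgroup.pow_mem _ d.gG r) h)
    have h1 : orderOf (g ^ r) = orderOf g := by
      rw [← hc]
      exact orderOf_injective (MulAut.conj c).toMonoidHom (MulAut.conj c).injective g
    rw [orderOf_pow' g hr.ne_zero, Nat.gcd_eq_right hdvd] at h1
    have := Nat.div_lt_self (orderOf_pos g) hr.one_lt
    omega
  set p := (orderOf g).minFac with hpdef
  have hp : p.Prime := Nat.minFac_prime hgne
  refine ⟨p, hp, ?_, fun x hx => ?_⟩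
  · refine ⟨(orderOf g).factorization p, ?_⟩
    by_contra hne
    obtain ⟨r, hr, hrd, hrp⟩ : ∃ r, r.Prime ∧ r ∣ orderOf g ∧ r ≠ p := by
      by_contra hno
      push Not at hno
      have h := Nat.eq_prime_pow_of_unique_prime_dvd (orderOf_pos g).ne' (fun {d} hd hdd => hno d hd hdd)
      apply hne
      conv_rhs => rw [h, Nat.Prime.factorization_pow hp, Finsupp.single_eq_same]
      exact h
    have hcop : Nat.Coprime p r := (Nat.coprime_primes hp hr).2 hrp.symm
    apply d.gK
    have h2 := Int.gcd_eq_gcd_ab (p : ℤ) r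
    rw [Int.gcd_natCast_natCast, hcop.gcd_eq_one] at h2
    rw [← zpow_one g, show (1 : ℤ) = ((1 : ℕ) : ℤ) from rfl, h2, zpow_add, zpow_mul, zpow_mul,
      zpow_natCast, zpow_natCast]
    exact K.mul_mem (K.zpow_mem (key p hp (Nat.minFac_dvd _)) _) (K.zpow_mem (key r hr hrd) _)
  · by_cases hxK : x ∈ K
    · exact K.pow_mem hxK p
    obtain ⟨c, rfl⟩ := isConj_iff.1 (d.cls x hx hxK)
    rw [conj_pow]
    exact d.conj_mem (key p hp (Nat.minFac_dvd _)) c

theorem exists_pow (d : Data g χ K) [K.Normal] {p : ℕ} (hp : p.Prime)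
    (hexp : ∀ x ∈ commutator G, x ^ p ∈ K) :
    IsPGroup p (↥(commutator G) ⧸ K.subgroupOf (commutator G)) ∧
      ∃ e, 0 < e ∧ K.relIndex (commutator G) = p ^ e := by
  haveI := d.nK
  haveI := Fact.mk hp
  have hP : IsPGroup p (↥(commutator G) ⧸ K.subgroupOf (commutator G)) := by
    intro x
    obtain ⟨y, rfl⟩ := QuotientGroup.mk'_surjective _ x
    refine ⟨1, ?_⟩
    rw [pow_one, ← map_pow]
    exact (QuotientGroup.eq_one_iff _).2 (hexp y y.2)
  obtain ⟨e, he⟩ := IsPGroup.iff_card.1 hP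
  refine ⟨hP, e, Nat.pos_of_ne_zero fun h0 => d.gK ?_, he⟩
  have h1 : K.relIndex (commutator G) = 1 := by rw [show K.relIndex (commutator G) = _ from he, h0, pow_zero]
  exact Subgroup.relIndex_eq_one.1 h1 d.gG

theorem comm (d : Data g χ K) {p : ℕ} (hp : p.Prime) (hexp : ∀ x ∈ commutator G, x ^ p ∈ K) :
    ∀ x ∈ commutator G, ∀ y ∈ commutator G, ⁅x, y⁆ ∈ K := by
  haveI := d.nK
  haveI := Fact.mk hp
  intro x hx y hy
  by_cases hxK : x ∈ K
  · rw [commutatorElement_def, mul_assoc, mul_assoc, ← mul_assoc y]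
    exact K.mul_mem hxK (d.conj_mem (K.inv_mem hxK) y)
  haveI : Nontrivial (↥(commutator G) ⧸ K.subgroupOf (commutator G)) := by
    refine ⟨⟨QuotientGroup.mk' _ ⟨x, hx⟩, 1, fun h => hxK ?_⟩⟩
    exact Subgroup.mem_subgroupOf.1 ((QuotientGroup.eq_one_iff (⟨x, hx⟩ : ↥(commutator G))).1 h)
  haveI := (d.exists_pow hp hexp).1.center_nontrivial
  obtain ⟨⟨z, hz⟩, hz1⟩ := exists_ne (1 : Subgroup.center (↥(commutator G) ⧸ K.subgroupOf (commutator G)))
  obtain ⟨z', rfl⟩ := QuotientGroup.mk'_surjective _ z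
  have hzK : (z' : G) ∉ K := fun h => hz1 (Subtype.ext ((QuotientGroup.eq_one_iff _).2 h))
  obtain ⟨c, hc⟩ := isConj_iff.1 ((d.cls _ z'.2 hzK).symm.trans (d.cls x hx hxK))
  have hy' : c⁻¹ * y * c ∈ commutator G := by
    simpa using (inferInstance : (commutator G).Normal).conj_mem y hy c⁻¹
  have h1 : ⁅(z' : G), c⁻¹ * y * c⁆ ∈ K := by
    have h2 := Subgroup.mem_center_iff.1 hz (QuotientGroup.mk' _ ⟨_, hy'⟩)
    have h3 : QuotientGroup.mk' (K.subgroupOf (commutator G)) ⁅z', ⟨_, hy'⟩⁆ = 1 := by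
      rw [map_commutatorElement, commutatorElement_eq_one_iff_mul_comm]
      exact h2.symm
    have h5 := Subgroup.mem_subgroupOf.1 ((QuotientGroup.eq_one_iff _).1 h3)
    exact h5
  have h4 := d.conj_mem h1 c
  rwa [show c * ⁅(z' : G), c⁻¹ * y * c⁆ * c⁻¹ = ⁅c * (z' : G) * c⁻¹, y⁆ by
    simp only [commutatorElement_def]; group, hc] at h4

/-- Only elements of the derived group centralise `G' / K` when some element moves it. -/
theorem regular (d : Data g χ K) {p : ℕ} (hp : p.Prime) (hexp : ∀ x ∈ commutator G, x ^ p ∈ K)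
    {b₀ v₀ : G} (hv₀ : v₀ ∈ commutator G) (hb₀ : ⁅b₀, v₀⁆ ∉ K) (a x : G) (hx : x ∈ commutator G)
    (hxK : x ∉ K) (h : ⁅a, x⁆ ∈ K) : a ∈ commutator G := by
  haveI := d.nK
  set π := QuotientGroup.mk' K with hπ
  set V := (commutator G).map π with hV
  haveI hVn : V.Normal := Subgroup.Normal.map inferInstance π (QuotientGroup.mk'_surjective K)
  have hab : ∀ u ∈ V, ∀ w ∈ V, Commute u w := by
    rintro _ ⟨u, hu, rfl⟩ _ ⟨w, hw, rfl⟩
    refine commutatorElement_eq_one_iff_mul_comm.1 ?_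
    rw [← map_commutatorElement]
    exact (QuotientGroup.eq_one_iff _).2 (d.comm hp hexp u hu w hw)
  have hcomm : ∀ s t : G ⧸ K, ⁅s, t⁆ ∈ V := by
    intro s t
    obtain ⟨s, rfl⟩ := QuotientGroup.mk'_surjective K s
    obtain ⟨t, rfl⟩ := QuotientGroup.mk'_surjective K t
    rw [← map_commutatorElement]
    refine Subgroup.mem_map_of_mem _ ?_
    rw [commutator_eq_closure]
    exact Subgroup.subset_closure (commutator_mem_commutatorSet s t)
  -- an element fixing one non-trivial element of `V` fixes all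
  have hfix : ∀ s : G ⧸ K, ∀ u ∈ V, u ≠ 1 → Commute s u → ∀ w ∈ V, Commute s w := by
    intro s u hu hu1 hsu w hw
    by_cases hw1 : w = 1
    · rw [hw1]; exact Commute.one_right s
    obtain ⟨u', hu', rfl⟩ := hu
    obtain ⟨w', hw', rfl⟩ := hw
    obtain ⟨c, hc⟩ := isConj_iff.1 ((d.cls u' hu' (fun h => hu1 ((QuotientGroup.eq_one_iff _).2 h))).symm.trans
      (d.cls w' hw' (fun h => hw1 ((QuotientGroup.eq_one_iff _).2 h))))
    have h1 : Commute (π c * s * (π c)⁻¹) (π w') := by
      rw [← hc, map_mul, map_mul, map_inv]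
      exact hsu.map (MulAut.conj (π c)).toMonoidHom
    have h2 : Commute ⁅π c, s⁆ (π w') := hab _ (hcomm _ _) _ (Subgroup.mem_map_of_mem _ hw')
    rw [show π c * s * (π c)⁻¹ = ⁅π c, s⁆ * s by rw [commutatorElement_def]; group] at h1
    have h3 := h2.inv_left.mul_left h1
    rwa [inv_mul_cancel_left] at h3
  -- centralising `V` forces membership
  by_contra ha
  have hax : Commute (π a) (π x) := commutatorElement_eq_one_iff_mul_comm.1 (by
    rw [← map_commutatorElement]; exact (QuotientGroup.eq_one_iff _).2 h)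
  have hcen : ∀ w ∈ V, Commute (π a) w := hfix _ _ (Subgroup.mem_map_of_mem _ hx)
    (fun h1 => hxK ((QuotientGroup.eq_one_iff _).1 h1)) hax
  set b := π b₀ with hb
  have hbmove : ∀ w ∈ V, Commute b w → w = 1 := by
    intro w hw hbw
    by_contra hw1
    refine hb₀ ((QuotientGroup.eq_one_iff _).1 ?_)
    show π ⁅b₀, v₀⁆ = 1
    rw [map_commutatorElement, commutatorElement_eq_one_iff_mul_comm]
    exact hfix b w hw hw1 hbw _ (Subgroup.mem_map_of_mem _ hv₀)
  let α : V → V := fun w => ⟨⁅b, (w : G ⧸ K)⁆, hcomm _ _⟩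
  have hinj : Function.Injective α := by
    intro u w huw
    have h1 : b * u * b⁻¹ * (u : G ⧸ K)⁻¹ = b * w * b⁻¹ * (w : G ⧸ K)⁻¹ := congrArg Subtype.val huw
    refine Subtype.ext ?_
    have h2 : ((w : G ⧸ K)⁻¹ * u) = 1 := by
      refine hbmove _ (V.mul_mem (V.inv_mem w.2) u.2) ?_
      have h3 : b * ((w : G ⧸ K)⁻¹ * u) * b⁻¹ = (w : G ⧸ K)⁻¹ * u := by
        calc b * ((w : G ⧸ K)⁻¹ * u) * b⁻¹
            = (b * w * b⁻¹)⁻¹ * ((b * u * b⁻¹ * (u : G ⧸ K)⁻¹) * u) := by group
          _ = (b * w * b⁻¹)⁻¹ * ((b * w * b⁻¹ * (w : G ⧸ K)⁻¹) * u) := by rw [h1]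
          _ = (w : G ⧸ K)⁻¹ * u := by group
      exact mul_inv_eq_iff_eq_mul.1 h3
    exact (inv_mul_eq_one.1 h2).symm
  obtain ⟨⟨v, hv⟩, hvf⟩ := (Finite.injective_iff_surjective.1 hinj)
    ⟨⁅b, (π a)⁻¹⁆, hcomm _ _⟩
  have h1 : ⁅b, v⁆ = ⁅b, (π a)⁻¹⁆ := congrArg Subtype.val hvf
  set y := π a * v with hy
  have hyb : Commute b y := by
    refine mul_inv_eq_iff_eq_mul.1 ?_
    calc b * y * b⁻¹ = (b * π a * b⁻¹) * (⁅b, v⁆ * v) := by
          rw [hy, commutatorElement_def]; group
      _ = y := by rw [h1, hy, commutatorElement_def]; group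
  have hyV : ∀ w ∈ V, Commute y w := fun w hw => (hcen w hw).mul_left (hab v hv w hw)
  have hyall : ∀ c : G ⧸ K, Commute y c := by
    intro c
    refine commutatorElement_eq_one_iff_mul_comm.1 (hbmove _ (hcomm y c) ?_)
    refine mul_inv_eq_iff_eq_mul.1 ?_
    have h2 : b * ⁅y, c⁆ * b⁻¹ = ⁅y, b * c * b⁻¹⁆ := by
      have h3 : ⁅b * y * b⁻¹, b * c * b⁻¹⁆ = b * ⁅y, c⁆ * b⁻¹ := by
        simp only [commutatorElement_def]; group
      rw [← h3, hyb.eq, mul_inv_cancel_right]
    rw [h2, show b * c * b⁻¹ = ⁅b, c⁆ * c by rw [commutatorElement_def]; group]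
    set w := ⁅b, c⁆ with hw
    have hwy : ⁅y, w⁆ = 1 := commutatorElement_eq_one_iff_mul_comm.2 (hyV w (hcomm _ _)).eq
    calc ⁅y, w * c⁆ = ⁅y, w⁆ * (w * ⁅y, c⁆ * w⁻¹) := by simp only [commutatorElement_def]; group
      _ = ⁅y, c⁆ := by rw [hwy, one_mul, (hab w (hcomm _ _) _ (hcomm y c)).eq, mul_inv_cancel_right]
  obtain ⟨v', hv', hvv⟩ := hv
  have hy' : π (a * v') = y := by rw [map_mul, hvv, hy]
  have hne : (χ : G → ℂ) (a * v') ≠ 0 := by
    intro h0
    have h2 := ne_zero_of_central χ (y := a * v') (fun c => (d.memK _).1 ((QuotientGroup.eq_one_iff _).1 (by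
      show π (a * v' * (c * (a * v')⁻¹ * c⁻¹)) = 1
      rw [map_mul π (a * v'), map_mul π (c * _), map_mul π c, map_inv, map_inv, hy', ← mul_assoc, ← mul_assoc,
        (hyall (π c)).eq, mul_inv_cancel_right, mul_inv_cancel])))
    rw [h0, zero_mul] at h2
    obtain ⟨m, hm, hm1⟩ := Char.irr_one_pos χ.2
    exact pow_ne_zero 2 (show (χ : G → ℂ) 1 ≠ 0 by rw [hm1]; exact_mod_cast hm.ne') h2.symm
  have h4 : a * v' ∈ commutator G := by
    by_contra h5
    exact hne (d.vanish _ h5)
  exact ha ((Subgroup.mul_mem_cancel_right _ hv').1 h4)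

theorem index_add_one (d : Data g χ K)
    (hreg : ∀ a x : G, x ∈ commutator G → x ∉ K → ⁅a, x⁆ ∈ K → a ∈ commutator G)
    (hcomm : ∀ x ∈ commutator G, ∀ y ∈ commutator G, ⁅x, y⁆ ∈ K) :
    (commutator G).index + 1 = K.relIndex (commutator G) := by
  haveI := d.nK
  set π := QuotientGroup.mk' K with hπ
  set V := (commutator G).map π with hV
  have hC : (Subgroup.centralizer ({π g} : Set (G ⧸ K))).comap π = commutator G := by
    ext a
    rw [Subgroup.mem_comap, Subgroup.mem_centralizer_singleton_iff,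
      ← commutatorElement_eq_one_iff_mul_comm, ← map_commutatorElement]
    rw [show π ⁅a, g⁆ = 1 ↔ ⁅a, g⁆ ∈ K from QuotientGroup.eq_one_iff _]
    exact ⟨fun h => hreg a g d.gG d.gK h, fun h => hcomm a h g d.gG⟩
  have horb : MulAction.orbit (ConjAct (G ⧸ K)) (π g) = (V : Set (G ⧸ K)) \ {1} := by
    ext u
    rw [ConjAct.mem_orbit_conjAct]
    constructor
    · intro h
      obtain ⟨c, hc⟩ := isConj_iff.1 h.symm
      obtain ⟨c, rfl⟩ := QuotientGroup.mk'_surjective K c
      rw [← hc]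
      refine ⟨⟨c * g * c⁻¹, (inferInstance : (commutator G).Normal).conj_mem g d.gG c, by simp [hπ]⟩, ?_⟩
      intro h1
      exact d.gK ((QuotientGroup.eq_one_iff _).1 (conj_eq_one_iff.1 h1))
    · rintro ⟨⟨x, hx, rfl⟩, hx1⟩
      exact (MonoidHom.map_isConj π (d.cls x hx (fun h => hx1 ((QuotientGroup.eq_one_iff _).2 h)))).symm
  have h1 : (commutator G).index = Nat.card (MulAction.orbit (ConjAct (G ⧸ K)) (π g)) := by
    conv_lhs => rw [← hC]
    rw [Subgroup.index_comap_of_surjective _ (QuotientGroup.mk'_surjective K)]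
    have h3 := Nat.card_congr (MulAction.orbitProdStabilizerEquivGroup (ConjAct (G ⧸ K)) (π g))
    have h4 : Nat.card (MulAction.stabilizer (ConjAct (G ⧸ K)) (π g))
        = Nat.card (Subgroup.centralizer ({π g} : Set (G ⧸ K))) := by
      rw [ConjAct.stabilizer_eq_centralizer]
      refine (Nat.card_congr (Equiv.subtypeEquiv ConjAct.toConjAct.toEquiv fun y => ?_)).symm
      rw [Subgroup.mem_centralizer_singleton_iff, Subgroup.mem_centralizer_singleton_iff]
      exact ConjAct.toConjAct.injective.eq_iff.symm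
    rw [Nat.card_prod, h4, Nat.card_congr ConjAct.ofConjAct.toEquiv,
      ← Subgroup.card_mul_index (Subgroup.centralizer ({π g} : Set (G ⧸ K))), mul_comm] at h3
    exact (Nat.eq_of_mul_eq_mul_left Nat.card_pos h3).symm
  have h2 : Nat.card V = K.relIndex (commutator G) := by
    rw [← Subgroup.relIndex_bot_left V, hV, ← Subgroup.map_bot π, Subgroup.relIndex_map_map,
      QuotientGroup.ker_mk', bot_sup_eq, sup_eq_left.2 d.le]
  rw [h1, horb, Nat.card_coe_set_eq, ← h2,
    Set.ncard_diff (Set.singleton_subset_iff.2 V.one_mem), Set.ncard_singleton,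
    ← Nat.card_coe_set_eq, Nat.sub_add_cancel]
  · rfl
  · exact Nat.card_pos (α := V)

theorem exists_complement (d : Data g χ K) {p : ℕ} (hp : p.Prime) (hga : ∃ a, orderOf g = p ^ a)
    (hcomm : ∀ x ∈ commutator G, ∀ y ∈ commutator G, ⁅x, y⁆ ∈ K)
    (hn : ¬ p ∣ (commutator G).index) :
    ∃ N : Subgroup G, N.Normal ∧ N ≤ commutator G ∧ (Nat.card N).Coprime p ∧
      ∃ k, N.relIndex (commutator G) = p ^ k := by
  haveI := d.nK
  set D := commutator G with hD
  obtain ⟨M, hM⟩ := BlkChar.exists_isPModular p hp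
  haveI := Block.isPrime_of_isPModular hM
  obtain ⟨a, ha⟩ := hga
  have hlinK : ∀ x : D, (x : G) ∉ K → ∃ f : D →* ℂˣ, (∀ k : D, (k : G) ∈ K → f k = 1) ∧ f x ≠ 1 := by
    intro x hx
    haveI : IsMulCommutative (D ⧸ K.subgroupOf D) := ⟨⟨fun u w => by
      obtain ⟨u, rfl⟩ := QuotientGroup.mk'_surjective _ u
      obtain ⟨w, rfl⟩ := QuotientGroup.mk'_surjective _ w
      rw [← commutatorElement_eq_one_iff_mul_comm, ← map_commutatorElement]
      exact (QuotientGroup.eq_one_iff _).2 (hcomm u u.2 w w.2)⟩⟩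
    letI : CommGroup (D ⧸ K.subgroupOf D) :=
      { (inferInstance : Group (D ⧸ K.subgroupOf D)) with
        mul_comm := fun u w => mul_comm' u w }
    obtain ⟨φ, hφ⟩ := CommGroup.exists_apply_ne_one_of_hasEnoughRootsOfUnity
      (D ⧸ K.subgroupOf D) ℂ (a := QuotientGroup.mk' _ x)
      (fun h => hx (Subgroup.mem_subgroupOf.1 ((QuotientGroup.eq_one_iff _).1 h)))
    exact ⟨φ.comp (QuotientGroup.mk' _), fun k hk => by
      rw [MonoidHom.comp_apply, show QuotientGroup.mk' (K.subgroupOf D) k = 1 from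
        (QuotientGroup.eq_one_iff _).2 hk, map_one], hφ⟩
  have hdeg : ∀ φ : IrrCharacter D, charDegree (φ : D → ℂ) ≠ 1 → p ∣ charDegree (φ : D → ℂ) := by
    intro φ hφ
    have hφ1 : (φ : D → ℂ) 1 ≠ 1 := fun h => hφ (by
      exact_mod_cast (BlocksChar.charDegree_eq φ).trans h)
    have hlin : ∀ f : D →* ℂˣ, ∑ x : D, (φ : D → ℂ) x * conj ((f x : ℂ)) = 0 := by
      intro f
      have h := Char.classInner_irr_ne φ.2 (Char.isIrrCharacter_monoidHom f) (fun h => hφ1 (by
        rw [h]; simp))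
      rw [classInner] at h
      exact (mul_eq_zero.1 h).resolve_left (inv_ne_zero Char.card_ne_zero_complex)
    have hone : ∑ x : D, (φ : D → ℂ) x = 0 := by simpa using hlin 1
    -- the sum over `K`
    have hK0 : ∑ x ∈ Finset.univ.filter (fun x : D => (x : G) ∈ K), (φ : D → ℂ) x = 0 := by
      haveI := Char.monoidHom_complex_finite (G := D)
      letI := Fintype.ofFinite (D →* ℂˣ)
      let S : Finset (D →* ℂˣ) := Finset.univ.filter fun f => ∀ k : D, (k : G) ∈ K → f k = 1
      have hval : ∀ x : D, ∑ f ∈ S, conj ((f x : ℂ)) = if (x : G) ∈ K then (S.card : ℂ) else 0 := by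
        intro x
        split_ifs with hx
        · rw [Finset.sum_congr rfl (g := fun _ : D →* ℂˣ => (1 : ℂ)) fun f hf => by
            rw [(Finset.mem_filter.1 hf).2 x hx, Units.val_one, map_one], Finset.sum_const, nsmul_one]
        · obtain ⟨f₀, hf₀, hf₀x⟩ := hlinK x hx
          have h2 : conj ((f₀ x : ℂ)) * ∑ f ∈ S, conj ((f x : ℂ)) = ∑ f ∈ S, conj ((f x : ℂ)) := by
            rw [Finset.mul_sum]
            refine Finset.sum_equiv (Equiv.mulLeft f₀) (fun f => ?_) (fun f _ => by simp)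
            simp only [S, Finset.mem_filter, Finset.mem_univ, true_and, Equiv.coe_mulLeft,
              MonoidHom.mul_apply]
            exact ⟨fun h k hk => by rw [hf₀ k hk, h k hk, one_mul],
              fun h k hk => by have := h k hk; rwa [hf₀ k hk, one_mul] at this⟩
          by_contra hS
          have h3 := mul_right_cancel₀ hS (h2.trans (one_mul _).symm)
          exact hf₀x (Units.ext ((starRingEnd ℂ).injective (h3.trans (map_one _).symm)))
      have h4 : ∑ f ∈ S, ∑ x : D, (φ : D → ℂ) x * conj ((f x : ℂ)) = 0 :=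
        Finset.sum_eq_zero fun f _ => hlin f
      rw [Finset.sum_comm] at h4
      simp only [← Finset.mul_sum, hval, mul_ite, mul_zero, ← Finset.sum_filter, ← Finset.sum_mul] at h4
      refine (mul_eq_zero.1 h4).resolve_right ?_
      rw [Nat.cast_eq_zero, Finset.card_eq_zero]
      intro h5
      have h6 : (1 : D →* ℂˣ) ∈ S := Finset.mem_filter.2 ⟨Finset.mem_univ _, fun _ _ => rfl⟩
      rw [h5] at h6
      exact Finset.notMem_empty _ h6
    -- the induced function vanishes at `g`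
    have hcf : IsClassFunction G (indFun D (φ : D → ℂ)) := CharInd.indFun_isClassFunction D _
    have hind : indFun D (φ : D → ℂ) g = 0 := by
      rw [Char.eq_sum_classInner_smul hcf]
      rw [Finset.sum_apply]
      refine Finset.sum_eq_zero fun ψ _ => ?_
      rw [Pi.smul_apply, smul_eq_mul]
      by_cases hψg : (ψ : G → ℂ) g = 0
      · rw [hψg, mul_zero]
      suffices h : classInner (indFun D (φ : D → ℂ)) (ψ : G → ℂ) = 0 by rw [h, zero_mul]
      rw [CharInd.classInner_indFun_left D _ (Char.irr_isClassFunction ψ.2), classInner,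
        mul_eq_zero]
      right
      by_cases hψ1 : (ψ : G → ℂ) 1 = 1
      · rw [← hone]
        refine Finset.sum_congr rfl fun x _ => ?_
        rw [BlocksChar.linear_eq_one_of_mem_commutator (Char.isCharacter_of_irr ψ.2) hψ1 x.2,
          map_one, mul_one]
      obtain rfl : ψ = χ := by
        by_contra hne
        exact hψg (d.other ψ hψ1 hne)
      have hsplit : ∀ x : D, (φ : D → ℂ) x * conj ((ψ : G → ℂ) x)
          = (φ : D → ℂ) x * conj ((ψ : G → ℂ) g)
            + (if (x : G) ∈ K then (φ : D → ℂ) x else 0) * conj ((ψ : G → ℂ) 1 - (ψ : G → ℂ) g) := by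
        intro x
        split_ifs with hx
        · rw [(d.memK _).1 hx, map_sub]; ring
        · rw [← Char.isClassFunction_eq_of_isConj (Char.irr_isClassFunction ψ.2) (d.cls x x.2 hx)]
          ring
      rw [Finset.sum_congr rfl fun x _ => hsplit x, Finset.sum_add_distrib, ← Finset.sum_mul,
        ← Finset.sum_mul, ← Finset.sum_filter, hone, hK0, zero_mul, zero_mul, add_zero]
    -- congruence
    rw [show g = ((⟨g, d.gG⟩ : D) : G) from rfl, CharInd.indFun_normal_mem] at hind
    have hsum := (mul_eq_zero.1 hind).resolve_left (inv_ne_zero Char.card_ne_zero_complex)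
    let F : G ⧸ D → ℂ := fun t => (φ : D → ℂ)
      ⟨t.out * g * t.out⁻¹, (inferInstance : D.Normal).conj_mem g d.gG t.out⟩
    have hF : ∀ x : G, (φ : D → ℂ) ⟨x * g * x⁻¹, (inferInstance : D.Normal).conj_mem g d.gG x⟩
        = F (x : G ⧸ D) := by
      intro x
      obtain ⟨s, hs⟩ := QuotientGroup.mk_out_eq_mul D x
      have hs' : x * (s : G) * x⁻¹ ∈ D := (inferInstance : D.Normal).conj_mem s s.2 x
      show _ = (φ : D → ℂ) _
      rw [← Char.irr_isClassFunction φ.2 ⟨x * g * x⁻¹, _⟩ ⟨_, hs'⟩]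
      refine congrArg (φ : D → ℂ) (Subtype.ext ?_)
      simp only [Subgroup.coe_mul, Subgroup.coe_inv]
      rw [hs]
      group
    rw [Finset.sum_congr rfl fun x _ => hF x, ← Finset.sum_fiberwise Finset.univ
      (fun x : G => (x : G ⧸ D))] at hsum
    have hfib : ∀ t : G ⧸ D, ∑ x ∈ Finset.univ.filter (fun x : G => (x : G ⧸ D) = t), F (x : G ⧸ D) = (Nat.card D : ℂ) * F t := by
      intro t
      rw [Finset.sum_congr rfl (g := fun _ : G => F t) (fun x hx => by
        rw [(Finset.mem_filter.1 hx).2]), Finset.sum_const, nsmul_eq_mul]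
      congr 2
      rw [← Nat.card_eq_finsetCard]
      obtain ⟨t, rfl⟩ := QuotientGroup.mk_surjective t
      refine Nat.card_congr
        { toFun := fun x => ⟨t⁻¹ * x.1, QuotientGroup.eq.1 (Finset.mem_filter.1 x.2).2.symm⟩
          invFun := fun s => ⟨t * s.1, Finset.mem_filter.2 ⟨Finset.mem_univ _, (QuotientGroup.eq.2 (by simp)).symm⟩⟩
          left_inv := fun x => by simp
          right_inv := fun s => by simp }
    rw [Finset.sum_congr rfl fun t _ => hfib t, ← Finset.mul_sum] at hsum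
    have hsumF : ∑ t : G ⧸ D, F t = 0 :=
      (mul_eq_zero.1 hsum).resolve_left (Nat.cast_ne_zero.2 Nat.card_pos.ne')
    have hmem : MemLocalIdeal M (∑ t : G ⧸ D, (F t - (φ : D → ℂ) 1)) :=
      Block.memLocalIdeal_sum _ _ fun t _ => Kgv.char_sub_degree_memLocalIdeal hM
        (Char.isCharacter_of_irr φ.2) (k := a) (Subtype.ext (by
          show (t.out * g * t.out⁻¹) ^ p ^ a = 1
          rw [conj_pow, ← ha, pow_orderOf_eq_one, mul_one, mul_inv_cancel]))
    rw [Finset.sum_sub_distrib, hsumF, zero_sub, Finset.sum_const, Finset.card_univ, nsmul_eq_mul,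
      ← Nat.card_eq_fintype_card, ← BlocksChar.charDegree_eq φ, ← Nat.cast_mul] at hmem
    have hneg := Block.memLocalIdeal_neg hmem
    rw [neg_neg] at hneg
    have hdvd := (Block.memLocalIdeal_natCast_iff hM _).1 hneg
    exact (hp.dvd_mul.1 hdvd).resolve_left hn
  obtain ⟨N₀, hN₀, hcop, k, hk⟩ := S4456.result p hp hdeg
  set N := N₀.map D.subtype with hN
  have hcard : Nat.card N = Nat.card N₀ := Subgroup.card_map_of_injective D.subtype_injective
  refine ⟨N, ⟨fun x hx c => ?_⟩, Subgroup.map_subtype_le N₀, hcard ▸ hcop, k, ?_⟩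
  · obtain ⟨x, hx, rfl⟩ := hx
    refine ⟨⟨c * x * c⁻¹, (inferInstance : D.Normal).conj_mem x x.2 c⟩, ?_, rfl⟩
    set y : D := ⟨c * x * c⁻¹, (inferInstance : D.Normal).conj_mem x x.2 c⟩ with hy
    have h1 : orderOf y ∣ Nat.card N₀ := by
      refine orderOf_dvd_of_pow_eq_one (Subtype.ext ?_)
      show (c * (x : G) * c⁻¹) ^ Nat.card N₀ = 1
      rw [conj_pow, ← Subgroup.coe_pow,
        orderOf_dvd_iff_pow_eq_one.1 (Subgroup.orderOf_dvd_natCard _ hx), Subgroup.coe_one,
        mul_one, mul_inv_cancel]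
    have h2 : orderOf (QuotientGroup.mk' N₀ y) ∣ Nat.gcd (Nat.card N₀) (p ^ k) := by
      refine Nat.dvd_gcd ((orderOf_map_dvd _ y).trans h1) ?_
      rw [← hk]
      exact orderOf_dvd_natCard _
    rw [(hcop.pow_right k).gcd_eq_one, Nat.dvd_one, orderOf_eq_one_iff] at h2
    exact (QuotientGroup.eq_one_iff _).1 h2
  · rw [hN, Subgroup.relIndex, Subgroup.subgroupOf,
      Subgroup.comap_map_eq_self_of_injective D.subtype_injective, hk]

theorem of_pGroup {A : Type*} [Group A] [Finite A] {p : ℕ} [Fact p.Prime] (B C : Subgroup A) [B.Normal]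
    (hB : Group.IsSolvable B) (hBC : B ≤ C) {k : ℕ} (hk : B.relIndex C = p ^ k) : Group.IsSolvable C := by
  haveI : Group.IsNilpotent (C ⧸ B.subgroupOf C) := (IsPGroup.of_card (p := p) (n := k) hk).isNilpotent
  haveI := hB
  exact solvable_of_ker_le_range (Subgroup.inclusion hBC) (QuotientGroup.mk' (B.subgroupOf C))
    (by rw [QuotientGroup.ker_mk', Subgroup.inclusion_range])

theorem of_commutator {A : Type*} [Group A] (h : Group.IsSolvable (commutator A)) : Group.IsSolvable A := by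
  haveI := h
  haveI : Group.IsSolvable (A ⧸ commutator A) := by
    exact Group.isSolvable_of_comm fun x y => mul_comm (G := Abelianization A) x y
  exact solvable_of_ker_le_range (commutator A).subtype (QuotientGroup.mk' (commutator A))
    (by rw [QuotientGroup.ker_mk', Subgroup.range_subtype])

theorem central_case_two (d : Data g χ K) (hχ1 : (χ : G → ℂ) 1 ≠ 1)
    (hc : ∀ a : G, ∀ v ∈ commutator G, ⁅a, v⁆ ∈ K) :
    ∃ N : Subgroup G, N.Normal ∧ Odd (Nat.card N) ∧ ∃ k, N.index = 2 ^ k := by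
  haveI := d.nK
  set D := commutator G with hD
  set n := D.index with hn
  -- `G' \ K` is one coset
  have hcoset : ∀ x ∈ D, x ∉ K → x * g⁻¹ ∈ K := by
    intro x hx hxK
    obtain ⟨c, rfl⟩ := isConj_iff.1 (d.cls x hx hxK)
    simpa [commutatorElement_def] using hc c g d.gG
  have hsq : ∀ x ∈ D, x ^ 2 ∈ K := by
    intro x hx
    by_cases hxK : x ∈ K
    · exact K.pow_mem hxK 2
    have h1 := hcoset x hx hxK
    have h2 := hcoset x⁻¹ (D.inv_mem hx) (fun h => hxK (inv_inv x ▸ K.inv_mem h))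
    have h3 := K.mul_mem h1 (K.inv_mem h2)
    rw [mul_inv_rev, inv_inv, inv_inv, mul_assoc, inv_mul_cancel_left] at h3
    rwa [sq]
  obtain ⟨q, hq, ⟨a, ha⟩, hqexp⟩ := d.exists_prime
  have hq2 : q = 2 := by
    by_contra hne
    have hg2 := hsq g d.gG
    have hgq := hqexp g d.gG
    obtain ⟨m, rfl⟩ := hq.odd_of_ne_two hne
    refine d.gK ?_
    rw [pow_succ, pow_mul] at hgq
    exact (Subgroup.mul_mem_cancel_left _ (K.pow_mem hg2 m)).1 hgq
  subst hq2
  -- the degree
  obtain ⟨m, hm, hm1⟩ := Char.irr_one_pos χ.2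
  have hmn : m * m = n ∧ True := by
    refine ⟨?_, trivial⟩
    have h1 := ne_zero_of_central χ (y := g) (fun c => (d.memK _).1 (by
      have h2 := K.inv_mem (hc c g d.gG)
      have h3 := d.conj_mem (hc c g⁻¹ (D.inv_mem d.gG)) g
      rwa [commutatorElement_def, inv_inv, show g * (c * g⁻¹ * c⁻¹ * g) * g⁻¹ = g * (c * g⁻¹ * c⁻¹) by
        group] at h3))
    rw [d.val, hm1] at h1
    simp only [map_neg, map_div₀, map_natCast, neg_mul_neg] at h1
    have hmC : (m : ℂ) ≠ 0 := by exact_mod_cast hm.ne'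
    field_simp at h1
    have h4 : ((n * n : ℕ) : ℂ) = ((m * m * (m * m) : ℕ) : ℂ) := by
      push_cast
      linear_combination h1
    exact (Nat.mul_self_inj.1 (Nat.cast_injective h4)).symm
  have hneven : 2 ∣ n := by
    by_contra hodd
    -- then every commutator lies in `K`
    refine d.gK ((show D ≤ K from ?_) d.gG)
    rw [hD, commutator_eq_closure, Subgroup.closure_le]
    rintro _ ⟨x, y, rfl⟩
    set π := QuotientGroup.mk' K with hπ
    set c := π ⁅x, y⁆ with hcdef
    have hxy : ⁅x, y⁆ ∈ D := by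
      rw [hD, commutator_eq_closure]
      exact Subgroup.subset_closure (commutator_mem_commutatorSet x y)
    have hcc : ∀ v ∈ D, ∀ t : G, Commute (π t) (π v) := fun v hv t =>
      commutatorElement_eq_one_iff_mul_comm.1 (by
        rw [← map_commutatorElement]; exact (QuotientGroup.eq_one_iff _).2 (hc t v hv))
    have hpow : ∀ j : ℕ, ⁅π x ^ j, π y⁆ = c ^ j := by
      intro j
      induction j with
      | zero => simp
      | succ j ih =>
        rw [pow_succ, show ⁅π x ^ j * π x, π y⁆ = π x ^ j * ⁅π x, π y⁆ * (π x ^ j)⁻¹ * ⁅π x ^ j, π y⁆ by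
          simp only [commutatorElement_def]; group, ih, ← map_commutatorElement, ← hcdef,
          ← map_pow π, (hcc _ hxy (x ^ j)).eq, mul_inv_cancel_right, ← pow_succ']
    have h1 : c ^ n = 1 := by
      rw [← hpow, commutatorElement_eq_one_iff_mul_comm, ← map_pow]
      haveI : D.Normal := inferInstance
      exact ((hcc _ (Subgroup.pow_index_mem D x) y).symm).eq
    have h2 : c ^ 2 = 1 := by
      rw [hcdef, ← map_pow]
      exact (QuotientGroup.eq_one_iff _).2 (hsq _ hxy)
    have h3 : c = 1 := by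
      have := pow_gcd_eq_one.2 (⟨h1, h2⟩ : c ^ n = 1 ∧ c ^ 2 = 1)
      rwa [((Nat.prime_two.coprime_iff_not_dvd.2 hodd).symm).gcd_eq_one, pow_one] at this
    exact (QuotientGroup.eq_one_iff _).1 h3
  obtain ⟨M, hM⟩ := BlkChar.exists_isPModular 2 Nat.prime_two
  haveI := Block.isPrime_of_isPModular hM
  have hdeg : ∀ ψ : IrrCharacter G, charDegree (ψ : G → ℂ) ≠ 1 → 2 ∣ charDegree (ψ : G → ℂ) := by
    intro ψ hψ
    by_cases hψχ : ψ = χ
    · subst hψχ
      have h2 : charDegree (ψ : G → ℂ) = m := by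
        exact_mod_cast (BlocksChar.charDegree_eq ψ).trans hm1
      rw [h2]
      rw [← hmn.1] at hneven
      rcases Nat.prime_two.dvd_mul.1 hneven with h | h <;> exact h
    have hψ1 : (ψ : G → ℂ) 1 ≠ 1 := fun h => hψ (by
      exact_mod_cast (BlocksChar.charDegree_eq ψ).trans h)
    have h3 := Kgv.char_sub_degree_memLocalIdeal hM (Char.isCharacter_of_irr ψ.2) (g := g) (k := a)
      (by rw [← ha]; exact pow_orderOf_eq_one g)
    rw [d.other ψ hψ1 hψχ, zero_sub, ← BlocksChar.charDegree_eq ψ] at h3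
    exact (Block.memLocalIdeal_natCast_iff hM _).1 (by simpa using Block.memLocalIdeal_neg h3)
  obtain ⟨N, hN, hcop, k, hk⟩ := S4456.result 2 Nat.prime_two hdeg
  exact ⟨N, hN, Nat.coprime_two_right.1 hcop, k, hk⟩

theorem solvable (d : Data g χ K) (hχ1 : (χ : G → ℂ) 1 ≠ 1) : Group.IsSolvable G := by
  haveI := d.nK
  set D := commutator G with hD
  by_cases hc : ∀ a : G, ∀ v ∈ D, ⁅a, v⁆ ∈ K
  · obtain ⟨N, hN, hodd, k, hk⟩ := d.central_case_two hχ1 hc
    haveI := hN
    haveI := Fact.mk Nat.prime_two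
    haveI : Group.IsSolvable N := Cfsg.Agent.S0205.result hodd
    haveI : Group.IsNilpotent (G ⧸ N) := (IsPGroup.of_card (p := 2) (n := k) hk).isNilpotent
    exact solvable_of_ker_le_range N.subtype (QuotientGroup.mk' N)
      (by rw [QuotientGroup.ker_mk', Subgroup.range_subtype])
  push Not at hc
  obtain ⟨b₀, v₀, hv₀, hb₀⟩ := hc
  obtain ⟨p, hp, ⟨a, ha⟩, hexp⟩ := d.exists_prime
  haveI := Fact.mk hp
  have hcomm := d.comm hp hexp
  have hreg := d.regular hp hexp hv₀ hb₀
  have hidx := d.index_add_one hreg hcomm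
  obtain ⟨-, e, he, hq⟩ := d.exists_pow hp hexp
  have hn : ¬ p ∣ D.index := by
    intro h
    have h1 : p ∣ D.index + 1 := by rw [hidx, hq]; exact dvd_pow_self p he.ne'
    exact hp.ne_one (Nat.dvd_one.1 ((Nat.dvd_add_right h).1 h1))
  obtain ⟨N, hN, hND, hcop, k, hk⟩ := d.exists_complement hp ⟨a, ha⟩ hcomm hn
  haveI := hN
  suffices h : Group.IsSolvable N from of_commutator (of_pGroup N D h hND hk)
  by_cases hp2 : p = 2
  · subst hp2
    exact Cfsg.Agent.S0205.result (Nat.coprime_two_right.1 hcop)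
  have hNK : N ≤ K := by
    intro x hx
    have h1 : orderOf (QuotientGroup.mk' (K.subgroupOf D) ⟨x, hND hx⟩) ∣ Nat.gcd (Nat.card N) (p ^ e) := by
      refine Nat.dvd_gcd ((orderOf_map_dvd _ _).trans ?_) ?_
      · rw [← orderOf_injective D.subtype D.subtype_injective]
        exact Subgroup.orderOf_dvd_natCard _ hx
      · rw [← hq]
        exact orderOf_dvd_natCard _
    rw [(hcop.pow_right e).gcd_eq_one, Nat.dvd_one, orderOf_eq_one_iff] at h1
    exact Subgroup.mem_subgroupOf.1 ((QuotientGroup.eq_one_iff _).1 h1)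
  -- fixed point free
  have hfix : ∀ x ∈ N, Commute g x → x = 1 := by
    intro x hx hgx
    have hxK : g * x ∉ K := fun h => d.gK ((Subgroup.mul_mem_cancel_right _ (hNK hx)).1 h)
    obtain ⟨c, hc⟩ := isConj_iff.1 (d.cls _ (D.mul_mem d.gG (hND hx)) hxK)
    have h1 : orderOf (g * x) = orderOf g := by
      rw [← hc]
      exact orderOf_injective (MulAut.conj c).toMonoidHom (MulAut.conj c).injective g
    have hco : Nat.Coprime (orderOf g) (orderOf x) := by
      rw [ha]
      exact (hcop.symm.pow_left a).coprime_dvd_right (Subgroup.orderOf_dvd_natCard _ hx)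
    rw [hgx.orderOf_mul_eq_mul_orderOf_of_coprime hco] at h1
    exact orderOf_eq_one_iff.1 (Nat.eq_of_mul_eq_mul_left (orderOf_pos g) (h1.trans (mul_one _).symm))
  -- `g ^ p = 1`
  set π := QuotientGroup.mk' N with hπ
  have hcond : Cond p (D.map π) (K.map π) := by
    have hs := QuotientGroup.mk'_surjective N
    have hmem : ∀ {S : Subgroup G}, N ≤ S → ∀ x : G, (π x ∈ S.map π ↔ x ∈ S) := by
      intro S hS x
      rw [← Subgroup.mem_comap, Subgroup.comap_map_eq, QuotientGroup.ker_mk', sup_eq_left.2 hS]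
    refine ⟨Subgroup.Normal.map inferInstance _ hs, Subgroup.Normal.map d.nK _ hs,
      Subgroup.map_mono d.le, ⟨π g, Subgroup.mem_map_of_mem _ d.gG, fun h => d.gK ((hmem hNK g).1 h)⟩,
      IsPGroup.of_card (n := k) ?_, ?_, ?_, ?_, ?_, ?_⟩
    · rw [← Subgroup.relIndex_bot_left (D.map π), ← Subgroup.map_bot π, Subgroup.relIndex_map_map,
        QuotientGroup.ker_mk', bot_sup_eq, sup_eq_left.2 hND, hk]
    · intro s t
      obtain ⟨s, rfl⟩ := hs s
      obtain ⟨t, rfl⟩ := hs t
      rw [← map_commutatorElement]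
      refine Subgroup.mem_map_of_mem _ ?_
      rw [hD, commutator_eq_closure]
      exact Subgroup.subset_closure (commutator_mem_commutatorSet s t)
    · rintro _ ⟨x, hx, rfl⟩ hxK _ ⟨y, hy, rfl⟩ hyK
      exact MonoidHom.map_isConj π ((d.cls x hx (fun h => hxK (Subgroup.mem_map_of_mem _ h))).symm.trans
        (d.cls y hy (fun h => hyK (Subgroup.mem_map_of_mem _ h))))
    · intro s x' hx' hxK h
      obtain ⟨s, rfl⟩ := hs s
      obtain ⟨x, hx, rfl⟩ := hx'
      rw [← map_commutatorElement, hmem hNK] at h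
      exact Subgroup.mem_map_of_mem _ (hreg s x hx (fun h1 => hxK (Subgroup.mem_map_of_mem _ h1)) h)
    · rintro _ ⟨x, hx, rfl⟩ _ ⟨y, hy, rfl⟩
      rw [← map_commutatorElement]
      exact Subgroup.mem_map_of_mem _ (hcomm x hx y hy)
    · rw [Subgroup.index_map_eq _ hs (by rw [QuotientGroup.ker_mk']; exact hND),
        Subgroup.relIndex_map_map, QuotientGroup.ker_mk', sup_eq_left.2 hNK, sup_eq_left.2 hND]
      exact hidx
  have hgp : g ^ p = 1 := by
    have h1 := hcond.pow_eq_one hp2 (Subgroup.mem_map_of_mem π d.gG) (fun h => by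
      rw [← Subgroup.mem_comap, Subgroup.comap_map_eq, QuotientGroup.ker_mk', sup_eq_left.2 hNK] at h
      exact d.gK h)
    rw [← map_pow] at h1
    have h2 : g ^ p ∈ N := (QuotientGroup.eq_one_iff _).1 h1
    have h3 : orderOf (g ^ p) ∣ Nat.gcd (Nat.card N) (p ^ a) :=
      Nat.dvd_gcd (Subgroup.orderOf_dvd_natCard _ h2) (ha ▸ orderOf_pow_dvd p)
    rw [(hcop.pow_right a).gcd_eq_one, Nat.dvd_one, orderOf_eq_one_iff] at h3
    exact h3
  set φ : N ≃* N := MulAut.conjNormal g with hφ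
  have hφfix : ∀ x : N, φ x = x → x = 1 := by
    intro x hx
    have h1 : g * (x : G) * g⁻¹ = x := by
      have := congrArg Subtype.val hx
      rwa [hφ, MulAut.conjNormal_apply] at this
    exact Subtype.ext (hfix x x.2 (mul_inv_eq_iff_eq_mul.1 h1))
  by_cases hone : φ = 1
  · haveI : Subsingleton N := ⟨fun x y => (hφfix x (by rw [hone]; rfl)).trans (hφfix y (by rw [hone]; rfl)).symm⟩
    infer_instance
  have hord : orderOf φ = p := by
    refine orderOf_eq_prime ?_ hone
    rw [hφ, ← map_pow, hgp, map_one]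
  haveI := S0033.result φ hφfix p hp hord
  infer_instance

end Data

end Cfsg.Agent.OneSeen
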